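import Mathlib

/-!
# S5916, piece END-E: words in `SL₂` acting on a three-parameter family, characteristic two (helper977)
-/

set_option autoImplicit false

namespace Cfsg.Agent.H977.L16

variable {K : Type*} [Field K]

/-- one step : `x⁺(c)` or `x⁻(c)` on the coefficients of `e₊`, `e₋`, `h` -/
def st (t : K) (a : Bool × K) (v : K × K × K) : K × K × K :=
  if a.1 then (v.1 + a.2 * t + a.2 ^ 2 * v.2.1, v.2.1, v.2.2 + a.2 * v.2.1)
  else (v.1, v.2.1 + a.2 * t + a.2 ^ 2 * v.1, v.2.2 + a.2 * v.1)

/-- a word -/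
def ev (t : K) (w : List (Bool × K)) (v : K × K × K) : K × K × K := w.foldr (st t) v

theorem ev_nil (t : K) (v : K × K × K) : ev t [] v = v := rfl

theorem ev_cons (t : K) (a : Bool × K) (w : List (Bool × K)) (v : K × K × K) : ev t (a :: w) v = st t a (ev t w v) := rfl

theorem ev_append (t : K) (w w' : List (Bool × K)) (v : K × K × K) : ev t (w ++ w') v = ev t w (ev t w' v) :=
  List.foldr_append

theorem pe (t c x y h x' h' : K) (h1 : x + c * t + c ^ 2 * y = x') (h2 : h + c * y = h') :
    st t (true, c) (x, y, h) = (x', y, h') := by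
  subst h1 h2; rfl

theorem ne' (t c x y h y' h' : K) (h1 : y + c * t + c ^ 2 * x = y') (h2 : h + c * x = h') :
    st t (false, c) (x, y, h) = (x, y', h') := by
  subst h1 h2; rfl

/-- the torus word -/
def hh (l : K) : List (Bool × K) := [(true, l), (false, l⁻¹), (true, l), (true, 1), (false, 1), (true, 1)]

theorem ev_hh (t l : K) (v : K × K × K) : ev t (hh l) v =
    st t (true, l) (st t (false, l⁻¹) (st t (true, l) (st t (true, 1) (st t (false, 1) (st t (true, 1) v))))) := rfl

variable [CharP K 2]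

theorem two0 : (2 : K) = 0 := CharTwo.two_eq_zero

theorem hh_zero (t : K) {l : K} (hl : l ≠ 0) : ev t (hh l) (0, 0, 0) = (0, 0, 0) := by
  have h2 : (2 : K) = 0 := two0
  have hi : l * l⁻¹ = 1 := mul_inv_cancel₀ hl
  rw [ev_hh, pe t 1 0 0 0 t 0 (by ring) (by ring),
    ne' t 1 t 0 0 0 t (by linear_combination t * h2) (by ring),
    pe t 1 t 0 t 0 t (by linear_combination t * h2) (by ring),
    pe t l 0 0 t (l * t) t (by ring) (by ring),
    ne' t l⁻¹ (l * t) 0 t 0 0 (by linear_combination (l⁻¹ * t) * h2 + l⁻¹ * t * hi)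
      (by linear_combination t * h2 + t * hi),
    pe t l (l * t) 0 0 0 0 (by linear_combination (l * t) * h2) (by ring)]

theorem hh_pos {l : K} (hl : l ≠ 0) : ev 0 (hh l) (1, 0, 0) = (l ^ 2, 0, 0) := by
  have h2 : (2 : K) = 0 := two0
  have hi : l * l⁻¹ = 1 := mul_inv_cancel₀ hl
  rw [ev_hh, pe 0 1 1 0 0 1 0 (by ring) (by ring),
    ne' 0 1 1 0 0 1 1 (by ring) (by ring),
    pe 0 1 1 1 1 0 0 (by linear_combination h2) (by linear_combination h2),
    pe 0 l 0 1 0 (l ^ 2) l (by ring) (by ring),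
    ne' 0 l⁻¹ (l ^ 2) 1 l 0 0 (by linear_combination h2 + (l * l⁻¹ + 1) * hi)
      (by linear_combination l * h2 + l * hi),
    pe 0 l (l ^ 2) 0 0 (l ^ 2) 0 (by ring) (by ring)]

theorem hh_neg {l : K} (hl : l ≠ 0) : ev 0 (hh l) (0, 1, 0) = (0, l⁻¹ ^ 2, 0) := by
  have h2 : (2 : K) = 0 := two0
  have hi : l * l⁻¹ = 1 := mul_inv_cancel₀ hl
  rw [ev_hh, pe 0 1 0 1 0 1 1 (by ring) (by ring),
    ne' 0 1 1 1 1 0 0 (by linear_combination h2) (by linear_combination h2),
    pe 0 1 1 0 0 1 0 (by ring) (by ring),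
    pe 0 l 1 0 0 1 0 (by ring) (by ring),
    ne' 0 l⁻¹ 1 0 0 (l⁻¹ ^ 2) l⁻¹ (by ring) (by ring),
    pe 0 l 1 (l⁻¹ ^ 2) l⁻¹ 0 0 (by linear_combination h2 + (l * l⁻¹ + 1) * hi)
      (by linear_combination l⁻¹ * h2 + l⁻¹ * hi)]

/-- the four coefficients on `e₊`, `e₋` -/
def Triv (w : List (Bool × K)) : Prop :=
  (ev 0 w (1, 0, 0)).1 = 1 ∧ (ev 0 w (1, 0, 0)).2.1 = 0 ∧ (ev 0 w (0, 1, 0)).1 = 0 ∧ (ev 0 w (0, 1, 0)).2.1 = 1

theorem hh_mem {l : K} (hl : l ^ 16 = l) : ∀ x ∈ hh l, x.2 ^ 16 = x.2 := by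
  have h1 : (l⁻¹) ^ 16 = l⁻¹ := by rw [inv_pow, hl]
  intro x hx
  simp only [hh, List.mem_cons, List.not_mem_nil, or_false] at hx
  rcases hx with rfl | rfl | rfl | rfl | rfl | rfl
  · exact hl
  · exact h1
  · exact hl
  · exact one_pow _
  · exact one_pow _
  · exact one_pow _

/-- **every vector is fixed by a non-trivial word** -/
theorem exists_word {t a b l : K} (ht : t ^ 16 = t) (ha : a ^ 16 = a) (hb : b ^ 16 = b) (hl : l ^ 16 = l) (hl0 : l ≠ 0)
    (hl1 : l ≠ 1) : ∃ w : List (Bool × K), (∀ x ∈ w, x.2 ^ 16 = x.2) ∧ ev t w (a, b, 0) = (a, b, 0) ∧ ¬ Triv w := by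
  have h2 : (2 : K) = 0 := two0
  have hl2 : l ^ 2 ≠ 1 := by
    intro h
    have h3 : (l - 1) ^ 2 = 0 := by linear_combination h - (l - 1) * h2
    exact hl1 (sub_eq_zero.1 (pow_eq_zero_iff two_ne_zero |>.1 h3))
  by_cases ht0 : t = 0
  · subst ht0
    by_cases hb0 : b = 0
    · subst hb0
      refine ⟨[(true, 1)], ?_, ?_, ?_⟩
      · intro x hx
        rw [List.mem_singleton] at hx
        subst hx
        exact one_pow _
      · exact pe _ _ _ _ _ _ _ (by ring) (by ring)
      · rintro ⟨-, -, h, -⟩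
        have e : ev 0 [(true, (1 : K))] (0, 1, 0) = (1, 1, 1) := pe _ _ _ _ _ _ _ (by ring) (by ring)
        rw [e] at h
        exact one_ne_zero h
    by_cases ha0 : a = 0
    · subst ha0
      refine ⟨[(false, 1)], ?_, ?_, ?_⟩
      · intro x hx
        rw [List.mem_singleton] at hx
        subst hx
        exact one_pow _
      · exact ne' _ _ _ _ _ _ _ (by ring) (by ring)
      · rintro ⟨-, h, -, -⟩
        have e : ev 0 [(false, (1 : K))] (1, 0, 0) = (1, 1, 1) := ne' _ _ _ _ _ _ _ (by ring) (by ring)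
        rw [e] at h
        exact one_ne_zero h
    · have hc : ((a / b) ^ 8) ^ 2 * b = a := by
        rw [← pow_mul, show 8 * 2 = 16 from rfl, div_pow, ha, hb, div_mul_cancel₀ _ hb0]
      have hc16 : ((a / b) ^ 8) ^ 16 = (a / b) ^ 8 := by
        rw [← pow_mul, mul_comm, pow_mul, div_pow, ha, hb]
      generalize (a / b) ^ 8 = c at hc hc16
      refine ⟨[(true, c), (false, 1), (true, c)], ?_, ?_, ?_⟩
      · intro x hx
        simp only [List.mem_cons, List.not_mem_nil, or_false] at hx
        rcases hx with rfl | rfl | rfl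
        · exact hc16
        · exact one_pow _
        · exact hc16
      · show st 0 (true, c) (st 0 (false, 1) (st 0 (true, c) (a, b, 0))) = _
        rw [pe 0 c a b 0 0 (c * b) (by linear_combination a * h2 + hc) (by ring),
          ne' 0 1 0 b (c * b) b (c * b) (by ring) (by ring),
          pe 0 c 0 b (c * b) a 0 (by linear_combination hc) (by linear_combination c * b * h2)]
      · rintro ⟨-, h, -, -⟩
        have e : ev 0 [(true, c), (false, (1 : K)), (true, c)] (1, 0, 0) = (1 + c ^ 2, 1, 1 + c) := by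
          show st 0 (true, c) (st 0 (false, 1) (st 0 (true, c) (1, 0, 0))) = _
          rw [pe 0 c 1 0 0 1 0 (by ring) (by ring), ne' 0 1 1 0 0 1 1 (by ring) (by ring),
            pe 0 c 1 1 1 (1 + c ^ 2) (1 + c) (by ring) (by ring)]
        rw [e] at h
        exact one_ne_zero h
  by_cases ha0 : a = 0
  · subst ha0
    by_cases hb0 : b = 0
    · subst hb0
      refine ⟨hh l, hh_mem hl, hh_zero t hl0, ?_⟩
      rintro ⟨h, -, -, -⟩
      rw [hh_pos hl0] at h
      exact hl2 h
    · have hs : (b / t) * t = b := div_mul_cancel₀ _ ht0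
      have hs16 : (b / t) ^ 16 = b / t := by rw [div_pow, ht, hb]
      generalize b / t = s at hs hs16
      refine ⟨(false, s) :: (hh l ++ [(false, s)]), ?_, ?_, ?_⟩
      · intro x hx
        simp only [List.mem_cons, List.mem_append, List.not_mem_nil, or_false] at hx
        rcases hx with rfl | hx | rfl
        · exact hs16
        · exact hh_mem hl x hx
        · exact hs16
      · rw [ev_cons, ev_append]
        have e : ev t [(false, s)] (0, b, 0) = (0, 0, 0) := ne' _ _ _ _ _ _ _ (by linear_combination hs + b * h2) (by ring)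
        rw [e, hh_zero t hl0]
        exact ne' _ _ _ _ _ _ _ (by linear_combination hs) (by ring)
      · rintro ⟨-, -, -, h⟩
        rw [ev_cons, ev_append] at h
        have e : ev 0 [(false, s)] (0, 1, 0) = (0, 1, 0) := ne' _ _ _ _ _ _ _ (by ring) (by ring)
        have e2 : st 0 (false, s) (0, l⁻¹ ^ 2, 0) = (0, l⁻¹ ^ 2, 0) := ne' _ _ _ _ _ _ _ (by ring) (by ring)
        rw [e, hh_neg hl0, e2] at h
        apply hl2
        have h3 : l⁻¹ ^ 2 = 1 := h
        rw [inv_pow, inv_eq_one] at h3
        exact h3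
  · by_cases hb0 : b = 0
    · subst hb0
      have hs : (a / t) * t = a := div_mul_cancel₀ _ ht0
      have hs16 : (a / t) ^ 16 = a / t := by rw [div_pow, ht, ha]
      generalize a / t = s at hs hs16
      refine ⟨(true, s) :: (hh l ++ [(true, s)]), ?_, ?_, ?_⟩
      · intro x hx
        simp only [List.mem_cons, List.mem_append, List.not_mem_nil, or_false] at hx
        rcases hx with rfl | hx | rfl
        · exact hs16
        · exact hh_mem hl x hx
        · exact hs16
      · rw [ev_cons, ev_append]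
        have e : ev t [(true, s)] (a, 0, 0) = (0, 0, 0) := pe _ _ _ _ _ _ _ (by linear_combination hs + a * h2) (by ring)
        rw [e, hh_zero t hl0]
        exact pe _ _ _ _ _ _ _ (by linear_combination hs) (by ring)
      · rintro ⟨h, -, -, -⟩
        rw [ev_cons, ev_append] at h
        have e : ev 0 [(true, s)] (1, 0, 0) = (1, 0, 0) := pe _ _ _ _ _ _ _ (by ring) (by ring)
        have e2 : st 0 (true, s) (l ^ 2, 0, 0) = (l ^ 2, 0, 0) := pe _ _ _ _ _ _ _ (by ring) (by ring)
        rw [e, hh_pos hl0, e2] at h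
        exact hl2 h
    · have h1 : (t / a) * a = t := div_mul_cancel₀ _ ha0
      have h3 : (t / b) * b = t := div_mul_cancel₀ _ hb0
      have h1' : (t / a) ^ 16 = t / a := by rw [div_pow, ht, ha]
      have h3' : (t / b) ^ 16 = t / b := by rw [div_pow, ht, hb]
      have hne : t / a ≠ 0 := div_ne_zero ht0 ha0
      generalize t / a = c at h1 h1' hne
      generalize t / b = d at h3 h3'
      refine ⟨[(false, c), (true, d)], ?_, ?_, ?_⟩
      · intro x hx
        simp only [List.mem_cons, List.not_mem_nil, or_false] at hx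
        rcases hx with rfl | rfl
        · exact h1'
        · exact h3'
      · show st t (false, c) (st t (true, d) (a, b, 0)) = _
        rw [pe t d a b 0 a t (by linear_combination d * h3 + d * t * h2) (by linear_combination h3),
          ne' t c a b t b 0 (by linear_combination c * h1 + c * t * h2) (by linear_combination h1 + t * h2)]
      · rintro ⟨-, h, -, -⟩
        have e : ev 0 [(false, c), (true, d)] (1, 0, 0) = (1, c ^ 2, c) := by
          show st 0 (false, c) (st 0 (true, d) (1, 0, 0)) = _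
          rw [pe 0 d 1 0 0 1 0 (by ring) (by ring), ne' 0 c 1 0 0 (c ^ 2) c (by ring) (by ring)]
        rw [e] at h
        exact hne (pow_eq_zero_iff two_ne_zero |>.1 h)

end Cfsg.Agent.H977.L16
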