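import Cfsg.Agent.H950.L16.Stab

/-!
# S5916, piece END-E: a rational vector fixed by `H` (helper977)

If the socle `S` has a non-zero fixed vector on `LK`, then `H` has a non-zero fixed vector `v` with `fr v = v`.
-/

set_option autoImplicit false
set_option maxRecDepth 100000
set_option linter.unusedSectionVars false

namespace Cfsg.Agent.H977.L16

open Matrix Cfsg Cfsg.Lie
open Cfsg.Agent.H939.L64 (KK E2 LK L2 em aK fr rE rE_apply rE_mul rE_one rE_inv_self rE_self_inv fixS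
  em_injective em_entry rE_inj frE frE_apply frE_smul frE_rE)
open Cfsg.Agent.H950.L16

/-! ### rational vectors -/

/-- a functional applied to the coordinates -/
noncomputable def Ph (φ : KK →ₗ[ZMod 2] ZMod 2) (w : LK) : LK := fun i => algebraMap (ZMod 2) KK (φ (w i))

theorem Ph_fr (φ : KK →ₗ[ZMod 2] ZMod 2) (w : LK) : fr (Ph φ w) = Ph φ w := by
  funext i
  show (algebraMap (ZMod 2) KK (φ (w i))) ^ 2 = algebraMap (ZMod 2) KK (φ (w i))
  rw [← map_pow]
  congr 1
  exact ZMod.pow_card _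

theorem rE_Ph (φ : KK →ₗ[ZMod 2] ZMod 2) (g : E2) (w : LK) : rE g (Ph φ w) = Ph φ (rE g w) := by
  funext i
  show aK (em g) (Ph φ w) i = algebraMap (ZMod 2) KK (φ (aK (em g) w i))
  have h1 : aK (em g) w i = ∑ j, (((g : GL chevE8.Idx (ZMod 2)) : Matrix chevE8.Idx chevE8.Idx (ZMod 2)) i j) • w j := by
    rw [aK, Matrix.mulVec, dotProduct]
    refine Finset.sum_congr rfl fun j _ => ?_
    rw [em_entry, Algebra.smul_def]
  rw [h1, map_sum, map_sum, aK, Matrix.mulVec, dotProduct]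
  refine Finset.sum_congr rfl fun j _ => ?_
  rw [em_entry, map_smul, smul_eq_mul, map_mul]
  rfl

theorem exists_ph {w : LK} (hw : w ≠ 0) : ∃ φ : KK →ₗ[ZMod 2] ZMod 2, Ph φ w ≠ 0 := by
  obtain ⟨i, hi⟩ := Function.ne_iff.1 hw
  by_contra hcon
  push Not at hcon
  apply hi
  have h1 : ∀ φ : Module.Dual (ZMod 2) KK, φ (w i) = 0 := by
    intro φ
    have h2 := congrFun (hcon φ) i
    have h3 : algebraMap (ZMod 2) KK (φ (w i)) = 0 := h2
    exact (map_eq_zero _).1 h3
  exact (Module.forall_dual_apply_eq_zero_iff (ZMod 2) (w i)).1 h1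

variable {F : Type} [Field F] [Fintype F] {H : Subgroup E2}
  {f : SpecialLinearGroup (Fin 2) F →* E2} {y : SpecialLinearGroup (Fin 2) F}

/-- the rational vectors fixed by the socle -/
def W2 (f : SpecialLinearGroup (Fin 2) F →* E2) : Type := {v : LK // fr v = v ∧ v ∈ fixS (rE.comp f)}

instance : Finite (W2 f) := by
  have h1 : ∀ v : W2 f, ∀ i, v.1 i = 0 ∨ v.1 i = 1 := by
    intro v i
    have h2 : v.1 i ^ 2 = v.1 i := congrFun v.2.1 i
    have h3 : v.1 i * (v.1 i - 1) = 0 := by linear_combination h2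
    rcases mul_eq_zero.1 h3 with h | h
    · exact Or.inl h
    · exact Or.inr (sub_eq_zero.1 h)
  classical
  refine Finite.of_injective (fun (v : W2 f) (i : chevE8.Idx) => decide (v.1 i = 0)) fun v w h => ?_
  apply Subtype.ext
  funext i
  have h2 := congrFun h i
  simp only [decide_eq_decide] at h2
  rcases h1 v i with h3 | h3
  · rw [h3, h2.1 h3]
  · rcases h1 w i with h4 | h4
    · rw [h2.2 h4, h4]
    · rw [h3, h4]

theorem rE_fr (g : E2) {v : LK} (h : fr v = v) : fr (rE g v) = rE g v := by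
  have h1 : frE (rE g v) = rE g (frE v) := frE_rE g v
  have h2 : frE v = v := h
  rw [h2] at h1
  exact h1

/-- the action of `H` -/
@[reducible] noncomputable def actW (S : Sit H f y) : MulAction ↥H (W2 f) where
  smul h v := ⟨rE (h : E2) v.1, rE_fr _ v.2.1, fix_stable S h.2 v.2.2⟩
  one_smul v := Subtype.ext (rE_one v.1)
  mul_smul a b v := Subtype.ext (rE_mul (a : E2) (b : E2) v.1)

/-- group theory: an element that conjugates `a` (of order 17) to a power of itself -/
theorem pow16_comm {G : Type*} [Group G] (n a : G) (ha : a ^ 17 = 1) (ha1 : a ≠ 1) (i : ℤ) (h1 : n * a * n⁻¹ = a ^ i) :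
    Commute (n ^ 16) a := by
  have key : ∀ k : ℕ, n ^ k * a * (n ^ k)⁻¹ = a ^ (i ^ k) := by
    intro k
    induction k with
    | zero => simp
    | succ k ih =>
      have e : n ^ (k + 1) * a * (n ^ (k + 1))⁻¹ = n * (n ^ k * a * (n ^ k)⁻¹) * n⁻¹ := by
        rw [_root_.pow_succ']; group
      rw [e, ih, ← conj_zpow, h1, ← _root_.zpow_mul]
      congr 1
      ring
  have hz17 : ∀ c : ℤ, a ^ (17 * c) = 1 := by
    intro c
    rw [_root_.zpow_mul, show ((17 : ℤ)) = ((17 : ℕ) : ℤ) from rfl, zpow_natCast, ha, _root_.one_zpow]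
  have hi17 : ¬ (17 : ℤ) ∣ i := by
    rintro ⟨c, rfl⟩
    rw [hz17] at h1
    apply ha1
    have h2 : n * a = n := by rw [← mul_inv_eq_one]; exact h1
    exact mul_eq_left.1 h2
  have hF : (17 : ℤ) ∣ i ^ 16 - 1 := by
    haveI : Fact (Nat.Prime 17) := ⟨by norm_num⟩
    have h2 : (i : ZMod 17) ≠ 0 := by
      intro h
      exact hi17 ((ZMod.intCast_zmod_eq_zero_iff_dvd i 17).1 h)
    have h3 := ZMod.pow_card_sub_one_eq_one h2
    rw [show 17 - 1 = 16 from rfl] at h3
    have h4 : ((i ^ 16 - 1 : ℤ) : ZMod 17) = 0 := by push_cast; rw [h3, sub_self]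
    exact (ZMod.intCast_zmod_eq_zero_iff_dvd _ 17).1 h4
  obtain ⟨c, hc⟩ := hF
  have h2 : a ^ (i ^ 16) = a := by
    have e : i ^ 16 = 17 * c + 1 := by linarith
    rw [e, _root_.zpow_add, hz17, one_mul, zpow_one]
  have h3 := key 16
  rw [h2] at h3
  exact mul_inv_eq_iff_eq_mul.1 h3

theorem exists_n (S : Sit H f y) (h : ↥H) : ∃ (s : SpecialLinearGroup (Fin 2) F) (n : ↥H),
    (h : E2) = f s * n ∧ (n : E2) ^ 16 ∈ Subgroup.zpowers (f y) := by
  obtain ⟨s, i, hi⟩ := S.con h h.2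
  have hnH : (f s)⁻¹ * (h : E2) ∈ H := H.mul_mem (H.inv_mem (S.le s)) h.2
  refine ⟨s, ⟨(f s)⁻¹ * h, hnH⟩, (mul_inv_cancel_left (f s) (h : E2)).symm, ?_⟩
  apply S.cen _ (H.pow_mem hnH 16)
  have h17 : f y ^ 17 = 1 := by rw [← map_pow, ← S.ord, pow_orderOf_eq_one, map_one]
  have hy1 : f y ≠ 1 := by
    intro h1
    have h2 : y = 1 := S.inj (by rw [h1, map_one])
    have h3 := S.ord
    rw [h2, orderOf_one] at h3
    omega
  refine pow16_comm _ (f y) h17 hy1 i ?_
  have h2 : ((f s)⁻¹ * (h : E2)) * f y * ((f s)⁻¹ * (h : E2))⁻¹ =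
      (f s)⁻¹ * ((h : E2) * f y * (h : E2)⁻¹) * f s := by
    generalize (h : E2) = a
    generalize f s = b
    generalize f y = c
    group
  rw [h2, hi]
  generalize f s = b
  generalize f y ^ i = c
  group

/-- **a rational vector fixed by `H`** -/
theorem exists_fixed (S : Sit H f y) (h0 : fixS (rE.comp f) ≠ ⊥) :
    ∃ v : LK, v ≠ 0 ∧ fr v = v ∧ (∀ h ∈ H, rE h v = v) := by
  classical
  letI := actW S
  have hsm : ∀ (h : ↥H) (v : W2 f), (h • v).1 = rE (h : E2) v.1 := fun _ _ => rfl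
  obtain ⟨w, hw, hw0⟩ := (Submodule.ne_bot_iff _).1 h0
  obtain ⟨φ, hφ⟩ := exists_ph hw0
  have hφS : Ph φ w ∈ fixS (rE.comp f) := by
    intro s
    show rE (f s) (Ph φ w) = Ph φ w
    rw [rE_Ph]
    congr 1
    exact hw s
  let z0 : W2 f := ⟨0, by funext i; exact zero_pow two_ne_zero, Submodule.zero_mem _⟩
  let ρ : ↥H →* Equiv.Perm (W2 f) := MulAction.toPermHom ↥H (W2 f)
  have hρ : ∀ (h : ↥H) (v : W2 f), ρ h v = h • v := fun _ _ => rfl
  have hP : IsPGroup 2 ρ.range := by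
    rintro ⟨_, h, rfl⟩
    refine ⟨4, Subtype.ext ?_⟩
    show (ρ h) ^ (2 ^ 4) = 1
    obtain ⟨s, n, hsn, hn16⟩ := exists_n S h
    have h1 : h = ⟨f s, S.le s⟩ * n := Subtype.ext hsn
    have h2 : ρ ⟨f s, S.le s⟩ = 1 := by
      ext v
      apply Subtype.ext
      exact v.2.2 s
    rw [h1, map_mul, h2, one_mul, ← map_pow]
    ext v
    apply Subtype.ext
    show rE ((n ^ (2 ^ 4) : ↥H) : E2) v.1 = v.1
    obtain ⟨j, hj⟩ := Subgroup.mem_zpowers_iff.1 hn16
    have h3 : ((n ^ (2 ^ 4) : ↥H) : E2) = f (y ^ j) := by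
      rw [Subgroup.coe_pow, map_zpow, hj]
      rfl
    rw [h3]
    exact v.2.2 (y ^ j)
  -- the number of rational fixed vectors is even
  have hdvd : 2 ∣ Nat.card (W2 f) := by
    let u0 : W2 f := ⟨Ph φ w, Ph_fr φ w, hφS⟩
    let e : Equiv.Perm (W2 f) :=
      { toFun := fun v => ⟨v.1 + u0.1, by
          funext i
          show (v.1 i + u0.1 i) ^ 2 = v.1 i + u0.1 i
          have a1 : v.1 i ^ 2 = v.1 i := congrFun v.2.1 i
          have a2 : u0.1 i ^ 2 = u0.1 i := congrFun u0.2.1 i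
          rw [CharTwo.add_sq, a1, a2], Submodule.add_mem _ v.2.2 u0.2.2⟩
        invFun := fun v => ⟨v.1 + u0.1, by
          funext i
          show (v.1 i + u0.1 i) ^ 2 = v.1 i + u0.1 i
          have a1 : v.1 i ^ 2 = v.1 i := congrFun v.2.1 i
          have a2 : u0.1 i ^ 2 = u0.1 i := congrFun u0.2.1 i
          rw [CharTwo.add_sq, a1, a2], Submodule.add_mem _ v.2.2 u0.2.2⟩
        left_inv := fun v => Subtype.ext (by
          funext i
          show v.1 i + u0.1 i + u0.1 i = v.1 i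
          rw [add_assoc, CharTwo.add_self_eq_zero, add_zero])
        right_inv := fun v => Subtype.ext (by
          funext i
          show v.1 i + u0.1 i + u0.1 i = v.1 i
          rw [add_assoc, CharTwo.add_self_eq_zero, add_zero]) }
    haveI : Fact (Nat.Prime 2) := ⟨Nat.prime_two⟩
    haveI := Fintype.ofFinite (W2 f)
    let e' : Function.End (W2 f) := fun v => e v
    have he2 : e' ^ 2 ^ 1 = 1 := by
      funext v
      exact e.left_inv v
    have h1 := Equiv.Perm.card_fixedPoints_modEq (p := 2) (n := 1) (f := e') he2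
    have h2 : Fintype.card (Function.fixedPoints e') = 0 := by
      rw [Fintype.card_eq_zero_iff]
      refine ⟨fun v => ?_⟩
      have h3 : v.1.1 + u0.1 = v.1.1 := congrArg Subtype.val v.2
      exact hφ (add_eq_left.1 h3)
    rw [h2] at h1
    rw [Nat.card_eq_fintype_card]
    exact (Nat.modEq_zero_iff_dvd).1 h1
  haveI : Fact (Nat.Prime 2) := ⟨Nat.prime_two⟩
  have hz : z0 ∈ MulAction.fixedPoints ρ.range (W2 f) := by
    rintro ⟨_, h, rfl⟩
    apply Subtype.ext
    show rE (h : E2) (0 : LK) = 0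
    exact map_zero _
  obtain ⟨b, hb, hne⟩ := hP.exists_fixed_point_of_prime_dvd_card_of_fixed_point (W2 f) hdvd hz
  refine ⟨b.1, fun h => hne (Subtype.ext h.symm), b.2.1, fun h hh => ?_⟩
  have h1 := hb ⟨ρ ⟨h, hh⟩, ⟨⟨h, hh⟩, rfl⟩⟩
  exact congrArg Subtype.val h1

end Cfsg.Agent.H977.L16
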