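import Cfsg.Agent.H977.L16.Desc

/-!
# S5916, piece END-E: words in root elements, rational elements of the centraliser of `y` (helper977)
-/

set_option autoImplicit false
set_option maxRecDepth 100000
set_option linter.unusedSectionVars false

namespace Cfsg.Agent.H977.L16

open Matrix Cfsg Cfsg.Lie Cfsg.Lie.ChevalleyDatum
open Cfsg.Agent.ChevalleyStructure
open Cfsg.Agent.H942.E8Tab
open Cfsg.Agent.H950.L16
open Cfsg.Agent.H939.L64 (KK E2 LK L2 em aK fr rE brK em_injective em_entry fixS rE_apply rE_mul)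
open Cfsg.Agent.H876.L64 (aK_mul aK_one aK_inv aK_inv' aK_add aK_smul aK_zero aK_brK two_zero)
open Cfsg.Agent.H413.L64 (charKK)
open Cfsg.Agent.H413.L16
open Cfsg.Agent.H939.L16 (Ops Lsit rz rz_apply wi wt16)
open Cfsg.Agent.ChevalleyStructure.Columns (car cor)

/-- a word in the root elements of `± p` -/
noncomputable def wd (p : ℕ) (w : List (Bool × KK)) : ↥(chevE8.group KK) :=
  (w.map fun x => xr (if x.1 then p else 239 - p) x.2).prod

/-- the Frobenius twist of a word -/
noncomputable def tw (w : List (Bool × KK)) : List (Bool × KK) := w.map fun x => (x.1, x.2 ^ 2)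

theorem wd_nil (p : ℕ) : wd p [] = 1 := rfl

theorem wd_cons (p : ℕ) (x : Bool × KK) (w : List (Bool × KK)) :
    wd p (x :: w) = xr (if x.1 then p else 239 - p) x.2 * wd p w := rfl

theorem Fp_wd {Fp : LK → LK} {ta : LK →ₗ[KK] LK} (O : Ops Fp ta) {p : ℕ} (hp : p < 240) (w : List (Bool × KK)) :
    ∀ u, Fp (aK (wd p w) u) = aK (wd (wi p) (tw w)) (Fp u) := by
  induction w with
  | nil => intro u; rw [wd_nil, aK_one]; show Fp u = aK (wd (wi p) []) (Fp u); rw [wd_nil, aK_one]
  | cons x w ih =>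
    intro u
    have h1 : tw (x :: w) = (x.1, x.2 ^ 2) :: tw w := rfl
    have hlt : (if x.1 then p else 239 - p) < 240 := by split_ifs <;> omega
    have h2 : wi (if x.1 then p else 239 - p) = if x.1 then wi p else 239 - wi p := by
      split_ifs
      · rfl
      · exact wi_neg hp
    rw [h1, wd_cons, wd_cons, aK_mul, aK_mul, Fp_xr O hlt, ih, h2]

theorem tw_four {w : List (Bool × KK)} (hw : ∀ x ∈ w, x.2 ^ 16 = x.2) : tw (tw (tw (tw w))) = w := by
  unfold tw
  rw [List.map_map, List.map_map, List.map_map]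
  conv_rhs => rw [← List.map_id w]
  apply List.map_congr_left
  intro x hx
  have h := hw x hx
  show (x.1, (((x.2 ^ 2) ^ 2) ^ 2) ^ 2) = x
  have e : (((x.2 ^ 2) ^ 2) ^ 2) ^ 2 = x.2 ^ 16 := by ring
  rw [e, h]

theorem wd_comm_right {g : ↥(chevE8.group KK)} {p : ℕ} (H1 : ∀ c, Commute g (xr p c)) (H2 : ∀ c, Commute g (xr (239 - p) c))
    (w : List (Bool × KK)) : Commute g (wd p w) := by
  induction w with
  | nil => exact Commute.one_right g
  | cons x w ih =>
    rw [wd_cons]
    refine Commute.mul_right ?_ ih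
    split_ifs
    · exact H1 _
    · exact H2 _

theorem orth : ∀ r ∈ [121, 118], ∀ s ∈ [126, 113, 141, 98, 135, 104],
    s ≠ r ∧ s ≠ chevE8.neg r ∧ chevE8.commTerms r s = [] ∧ tg s r = 240 ∧ r ≠ 239 - s ∧ s < 240 ∧ r < 240 := by
  decide +kernel

theorem xr_comm' {r s : ℕ} (hr' : r ∈ [121, 118]) (hs : s ∈ [126, 113, 141, 98, 135, 104]) (c d : KK) :
    Commute (xr r c) (xr s d) := by
  obtain ⟨h1, h2, h3, -, -, h4, h5⟩ := orth r hr' s hs
  exact xr_comm h5 h4 h1 h2 h3 c d

theorem wd_comm {p : ℕ} (hp : p ∈ [126, 141, 135]) (w w' : List (Bool × KK)) : Commute (wd 121 w) (wd p w') := by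
  have h1 : p ∈ [126, 113, 141, 98, 135, 104] := by
    simp only [List.mem_cons, List.not_mem_nil, or_false] at hp ⊢
    omega
  have h2 : 239 - p ∈ [126, 113, 141, 98, 135, 104] := by
    simp only [List.mem_cons, List.not_mem_nil, or_false] at hp ⊢
    omega
  have key : ∀ r ∈ [121, 118], ∀ c, Commute (xr r c) (wd p w') := fun r hr' c =>
    wd_comm_right (fun d => xr_comm' hr' h1 c d) (fun d => xr_comm' hr' h2 c d) w'
  exact (wd_comm_right (fun c => (key 121 (by simp) c).symm) (fun c => (key 118 (by simp) c).symm) w).symm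

theorem xr_fix_er {r s : ℕ} (hr' : r ∈ [121, 118]) (hs : s ∈ [126, 113, 141, 98, 135, 104]) (c : KK) :
    aK (xr s c) (er r) = er r := by
  obtain ⟨-, -, -, h1, h2, h3, h4⟩ := orth r hr' s hs
  rw [aK_xr_er h3 h4 h2, h1, er_ge le_rfl, smul_zero, add_zero]

theorem wd_fix_er {r p : ℕ} (hr' : r ∈ [121, 118]) (hp : p ∈ [126, 141, 135]) (w : List (Bool × KK)) :
    aK (wd p w) (er r) = er r := by
  have h1 : p ∈ [126, 113, 141, 98, 135, 104] := by
    simp only [List.mem_cons, List.not_mem_nil, or_false] at hp ⊢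
    omega
  have h2 : 239 - p ∈ [126, 113, 141, 98, 135, 104] := by
    simp only [List.mem_cons, List.not_mem_nil, or_false] at hp ⊢
    omega
  induction w with
  | nil => rw [wd_nil, aK_one]
  | cons x w ih =>
    rw [wd_cons, aK_mul, ih]
    split_ifs
    · exact xr_fix_er hr' h1 _
    · exact xr_fix_er hr' h2 _

/-- the element of the frame -/
noncomputable def GW (w : List (Bool × KK)) : ↥(chevE8.group KK) :=
  wd 121 w * (wd 126 (tw w) * (wd 141 (tw (tw w)) * wd 135 (tw (tw (tw w)))))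

theorem Fp_GW {Fp : LK → LK} {ta : LK →ₗ[KK] LK} (O : Ops Fp ta) {w : List (Bool × KK)} (hw : ∀ x ∈ w, x.2 ^ 16 = x.2)
    (u : LK) : Fp (aK (GW w) u) = aK (GW w) (Fp u) := by
  unfold GW
  rw [aK_mul, aK_mul, aK_mul, Fp_wd O (by norm_num), Fp_wd O (by norm_num), Fp_wd O (by norm_num), Fp_wd O (by norm_num),
    tw_four hw]
  have e1 : wi 121 = 126 := by decide +kernel
  have e2 : wi 126 = 141 := by decide +kernel
  have e3 : wi 141 = 135 := by decide +kernel
  have e4 : wi 135 = 121 := by decide +kernel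
  rw [e1, e2, e3, e4, ← aK_mul, ← aK_mul, ← aK_mul]
  congr 1
  have h1 := wd_comm (p := 126) (by simp) w (tw w)
  have h2 := wd_comm (p := 141) (by simp) w (tw (tw w))
  have h3 := wd_comm (p := 135) (by simp) w (tw (tw (tw w)))
  have h4 := (h1.mul_right (h2.mul_right h3)).eq
  rw [h4]
  group

theorem GW_er {r : ℕ} (hr' : r ∈ [121, 118]) (w : List (Bool × KK)) : aK (GW w) (er r) = aK (wd 121 w) (er r) := by
  unfold GW
  rw [aK_mul, aK_mul, aK_mul, wd_fix_er hr' (by simp), wd_fix_er hr' (by simp), wd_fix_er hr' (by simp)]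

variable {F : Type} [Field F] [Fintype F] {H : Subgroup E2} {f : SpecialLinearGroup (Fin 2) F →* E2}
  {y t0 : SpecialLinearGroup (Fin 2) F} {z : ↥(chevE8.group KK)} {ζ' : KK} {Fp : LK → LK} {ta : LK →ₗ[KK] LK}

/-- the diagonal action on the coordinates -/
theorem Y_inr (D : Lsit H f y t0 z ζ' Fp ta) (u : LK) (k : Fin chevE8.nroots) :
    aK (z⁻¹ * em (f y) * z) u (Sum.inr k) = ζ' ^ (wt16 k).val * u (Sum.inr k) := by
  have h0 : ∀ v, aK (z⁻¹ * em (f y) * z) v = rz z f y v := fun v => rfl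
  rw [h0]
  conv_lhs => rw [decomp u]
  rw [map_add, map_sum, D.yhv, Pi.add_apply, Finset.sum_apply]
  have h1 : ∀ s : Fin chevE8.nroots, rz z f y (u (Sum.inr s) • er s) (Sum.inr k) =
      if s = k then ζ' ^ (wt16 k).val * u (Sum.inr k) else 0 := by
    intro s
    have hs : (s : ℕ) < 240 := lt_of_lt_of_eq s.2 nr
    rw [map_smul, D.yer s hs, Pi.smul_apply, Pi.smul_apply, er_inr, smul_eq_mul, smul_eq_mul]
    by_cases h : s = k
    · subst h
      rw [if_pos rfl, if_pos rfl]
      ring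
    · rw [if_neg h, if_neg (fun h2 => h (Fin.ext h2))]
      ring
  rw [Finset.sum_congr rfl fun s _ => h1 s, Finset.sum_ite_eq' Finset.univ k, if_pos (Finset.mem_univ k)]
  show (0 : KK) + _ = _
  rw [zero_add]

theorem Y_er (D : Lsit H f y t0 z ζ' Fp ta) {s : ℕ} (hs : s < 240) (h0 : wt16 s = 0) :
    aK (z⁻¹ * em (f y) * z) (er s) = er s := by
  show rz z f y (er s) = er s
  rw [D.yer s hs, h0]
  simp

/-- `y` commutes with the root elements of weight zero -/
theorem Y_xr (D : Lsit H f y t0 z ζ' Fp ta) {r : ℕ} (hr' : r < 240) (h0 : wt16 r = 0) (h1 : wt16 (239 - r) = 0) (c : KK) :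
    Commute (z⁻¹ * em (f y) * z) (xr r c) := by
  apply aK_ext
  intro v
  rw [aK_mul _ (xr r c), aK_mul (xr r c) _, aK_xr hr', aK_xr hr', aK_add, aK_add, aK_smul, aK_smul, aK_brK,
    Y_er D hr' h0, Y_inr D]
  congr 2
  show _ = c ^ 2 * (ζ' ^ (wt16 (239 - r)).val * _)
  rw [h1]
  simp

theorem wt_zero : ∀ r ∈ [121, 126, 141, 135], wt16 r = 0 ∧ wt16 (239 - r) = 0 ∧ r < 240 := by
  decide +kernel

theorem Y_GW (D : Lsit H f y t0 z ζ' Fp ta) (w : List (Bool × KK)) : Commute (z⁻¹ * em (f y) * z) (GW w) := by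
  have key : ∀ p ∈ [121, 126, 141, 135], ∀ w, Commute (z⁻¹ * em (f y) * z) (wd p w) := by
    intro p hp w
    obtain ⟨h1, h2, h3⟩ := wt_zero p hp
    refine wd_comm_right (fun c => Y_xr D h3 h1 h2 c) (fun c => Y_xr D (by omega) h2 ?_ c) w
    rw [show 239 - (239 - p) = p by omega]
    exact h1
  unfold GW
  exact (key 121 (by simp) _).mul_right ((key 126 (by simp) _).mul_right ((key 141 (by simp) _).mul_right
    (key 135 (by simp) _)))

/-- **rational elements**: a word fixing the first factor fixes the root vectors -/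
theorem contra (S : Sit H f y) (D : Lsit H f y t0 z ζ' Fp ta) {v : LK} (hv0 : v ≠ 0) (hfr : fr v = v)
    (hH : ∀ h ∈ H, rE h v = v) {w : List (Bool × KK)} (hw : ∀ x ∈ w, x.2 ^ 16 = x.2)
    (hfix : aK (wd 121 w) (aK z⁻¹ v) = aK z⁻¹ v) :
    aK (wd 121 w) (er 121) = er 121 ∧ aK (wd 121 w) (er 118) = er 118 := by
  have O := D.ops
  have hu : Fp (aK z⁻¹ v) = aK z⁻¹ v := by rw [← D.frob, hfr]
  set u := aK z⁻¹ v with hudef
  have e1 : wi 121 = 126 := by decide +kernel
  have e2 : wi 126 = 141 := by decide +kernel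
  have e3 : wi 141 = 135 := by decide +kernel
  have f1 : aK (wd 126 (tw w)) u = u := by
    have h := Fp_wd O (p := 121) (by norm_num) w u
    rw [hfix, hu, e1] at h
    exact h.symm
  have f2 : aK (wd 141 (tw (tw w))) u = u := by
    have h := Fp_wd O (p := 126) (by norm_num) (tw w) u
    rw [f1, hu, e2] at h
    exact h.symm
  have f3 : aK (wd 135 (tw (tw (tw w)))) u = u := by
    have h := Fp_wd O (p := 141) (by norm_num) (tw (tw w)) u
    rw [f2, hu, e3] at h
    exact h.symm
  have hGu : aK (GW w) u = u := by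
    unfold GW
    rw [aK_mul, aK_mul, aK_mul, f3, f2, f1, hfix]
  -- the rational element
  obtain ⟨g, hg⟩ : ∃ g : E2, em g = z * GW w * z⁻¹ := by
    apply exists_em
    intro x
    have hz : ∀ a b : LK, aK z⁻¹ a = aK z⁻¹ b → a = b := by
      intro a b hab
      have := congrArg (aK z) hab
      rwa [aK_inv, aK_inv] at this
    apply hz
    rw [D.frob, aK_mul, aK_mul, aK_inv', Fp_GW O hw, ← D.frob, aK_mul, aK_mul, aK_inv']
  have hgv : rE g v = v := by
    rw [rE_apply, hg, aK_mul, aK_mul, ← hudef, hGu, hudef, aK_inv]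
  have hgH : g ∈ H := by
    refine mem_of_fix S (W := Submodule.span KK {v}) ?_ ?_ ?_ ?_
    · rw [Ne, Submodule.span_singleton_eq_bot]
      exact hv0
    · intro s x hx
      obtain ⟨c, rfl⟩ := Submodule.mem_span_singleton.1 hx
      rw [map_smul, hH _ (S.le s)]
    · intro h hh x hx
      obtain ⟨c, rfl⟩ := Submodule.mem_span_singleton.1 hx
      rw [map_smul, hH _ hh]
      exact Submodule.smul_mem _ _ (Submodule.mem_span_singleton_self v)
    · intro x hx
      obtain ⟨c, rfl⟩ := Submodule.mem_span_singleton.1 hx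
      rw [map_smul, hgv]
  have hcomm : Commute g (f y) := by
    have h1 := (Y_GW D w).eq
    apply em_injective
    rw [map_mul, map_mul, hg]
    generalize em (f y) = Y at h1 ⊢
    generalize GW w = G at h1 ⊢
    calc z * G * z⁻¹ * Y = z * (G * (z⁻¹ * Y * z)) * z⁻¹ := by group
      _ = z * ((z⁻¹ * Y * z) * G) * z⁻¹ := by rw [h1]
      _ = _ := by group
  obtain ⟨i, hi⟩ := Subgroup.mem_zpowers_iff.1 (S.cen g hgH hcomm)
  have hGY : GW w = (z⁻¹ * em (f y) * z) ^ i := by
    have h1 : (z⁻¹ * em (f y) * z) ^ i = z⁻¹ * em (f y) ^ i * z := by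
      have h2 := conj_zpow (i := i) (a := z⁻¹) (b := em (f y))
      rwa [inv_inv] at h2
    rw [h1, ← map_zpow, hi, hg]
    group
  have hYi : ∀ (i : ℤ) (x : LK), aK (z⁻¹ * em (f y) * z) x = x → aK ((z⁻¹ * em (f y) * z) ^ i) x = x := by
    intro i x hx
    have hn : ∀ n : ℕ, aK ((z⁻¹ * em (f y) * z) ^ n) x = x := by
      intro n
      induction n with
      | zero => rw [pow_zero, aK_one]
      | succ n ih => rw [pow_succ, aK_mul, hx, ih]
    obtain ⟨n, rfl | rfl⟩ := i.eq_nat_or_neg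
    · rw [zpow_natCast]
      exact hn n
    · rw [_root_.zpow_neg, zpow_natCast]
      have h1 := hn n
      conv_lhs => rw [← h1]
      exact aK_inv' _ _
  constructor
  · rw [← GW_er (by simp) w, hGY]
    exact hYi i _ (Y_er D (by norm_num) (wt_zero 121 (by simp)).1)
  · rw [← GW_er (by simp) w, hGY]
    exact hYi i _ (Y_er D (by norm_num) (wt_zero 121 (by simp)).2.1)

end Cfsg.Agent.H977.L16
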